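/-
P19, applications: common lemmas and the almost simple quotient.
-/
import Cfsg.Agent.P19.Defs
import Cfsg.Agent.H9.TwoFrob
import Cfsg.Agent.H2.Components
import Cfsg.Agent.P7.K1
import Cfsg.Agent.P7.L2B

set_option autoImplicit false
set_option linter.unusedSectionVars false
set_option linter.style.haveILetI false

namespace Cfsg.Agent.P19.App

open Subgroup Cfsg Cfsg.Agent Cfsg.Agent.FT Cfsg.Agent.H2
open scoped commutatorElement

universe u

variable {G : Type u} [Group G] [Finite G]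

theorem no2_quot {r : ℕ} (h : No2 G r) (N : Subgroup G) [N.Normal] : No2 (G ⧸ N) r := fun g hg =>
  let ⟨x, hx⟩ := H9.exists_orderOf_eq_of_surjective (QuotientGroup.mk'_surjective N) ⟨g, hg⟩
  h x hx

theorem cop_index (H : CopStmt.{u}) {r : ℕ} (hr : r.Prime) (h2 : r ≠ 2) (h : No2 G r)
    {E : Subgroup G} [E.Normal] (ns : ¬ Group.IsSolvable E) : ¬ r ∣ E.index := by
  intro hd
  have := Fact.mk hr
  obtain ⟨x, hx⟩ := exists_prime_orderOf_dvd_card' (G := G ⧸ E) r hd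
  have hEX : E ≤ (zpowers x).comap (QuotientGroup.mk' E) := QuotientGroup.le_comap_mk' E _
  refine ns (H1.isSolvable_of_le hEX (H _ r hr h2 (fun g hg => h g (by rwa [orderOf_coe]))
    (E.subgroupOf _) inferInstance ?_))
  rw [← relIndex, L.relIndex_eq_card_map_mk',
    map_comap_eq_self_of_surjective (QuotientGroup.mk'_surjective E), Nat.card_zpowers, hx]

theorem two_comps {K K' : Subgroup G} (hK : CompIn ⊤ K) (hK' : CompIn ⊤ K') {r : ℕ} (hr : r.Prime)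
    (h2 : r ≠ 2) (h : No2 G r) (hd : r ∣ 𝐨(K)) : K' = K := by
  by_contra hne
  obtain ⟨x, hx, ho⟩ := FT.exists_mem_orderOf_eq_prime hr hd
  obtain ⟨t, ht, hto⟩ := FT.exists_mem_orderOf_eq_prime Nat.prime_two
    ((by norm_num : 2 ∣ 4).trans (P7.KO.four_dvd (QS.not_isSolvable hK'.2)))
  obtain ⟨g, hg⟩ := H9.exists_orderOf_eq_mul_of_commute (x := t) (y := x)
    (mem_cent.1 (hK'.le_centralizer_of_ne hK hne ht) x hx).symm
    ((Nat.coprime_primes Nat.prime_two hr).2 h2.symm) (hto ▸ dvd_rfl) (ho ▸ dvd_rfl)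
  exact h g hg

theorem exists_comp [Nontrivial G] (hF : fittingOf (⊤ : Subgroup G) = ⊥) :
    ∃ K : Subgroup G, CompIn ⊤ K := by
  refine exists_compIn_of_layerOf_ne_bot fun e => fstarOf_ne_bot (top_ne_bot (α := Subgroup G)) ?_
  rw [fstarOf_eq, e, hF, bot_sup_eq]

theorem layer_eq {K : Subgroup G} (hK : CompIn ⊤ K) (h1 : ∀ K', CompIn ⊤ K' → K' = K) :
    layerOf ⊤ = K := by
  refine le_antisymm ?_ hK.le_layerOf
  rw [layerOf_eq_sSup]
  exact sSup_le fun K' hK' => (h1 K' hK').le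

theorem one_comp (hF : fittingOf (⊤ : Subgroup G) = ⊥) {K : Subgroup G} (hK : CompIn ⊤ K)
    (h1 : ∀ K', CompIn ⊤ K' → K' = K) :
    K.Normal ∧ IsSimpleGroup K ∧ ¬ IsMulCommutative K ∧ centralizer (K : Set G) = ⊥ := by
  have hL := layer_eq hK h1
  have hc : centralizer (K : Set G) = ⊥ := by
    have := inf_centralizer_fstarOf_le_fittingOf (⊤ : Subgroup G)
    rwa [fstarOf_eq, hL, hF, sup_bot_eq, top_inf_eq, le_bot_iff] at this
  refine ⟨normal_of_top_le_normalizer (hL ▸ le_normalizer_layerOf ⊤),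
    isSimpleGroup_of_isQuasisimple hK.2 ?_, QS.not_isMulCommutative hK.2, hc⟩
  rw [center_eq_bot_iff_inf_centralizer, hc, inf_bot_eq]

theorem exists_comp_dvd (H : CopStmt.{u}) {r : ℕ} (hr : r.Prime) (h2 : r ≠ 2) (h : No2 G r)
    (hd : r ∣ Nat.card G) {K : Subgroup G} (hK : CompIn ⊤ K) :
    ∃ K' : Subgroup G, CompIn ⊤ K' ∧ r ∣ 𝐨(K') := by
  by_contra! hn
  haveI : (layerOf (⊤ : Subgroup G)).Normal := normal_of_top_le_normalizer (le_normalizer_layerOf ⊤)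
  have h3 := cop_index H hr h2 h (E := layerOf ⊤) fun hs =>
    QS.not_isSolvable hK.2 (H1.isSolvable_of_le hK.le_layerOf hs)
  rw [← card_mul_index (layerOf (⊤ : Subgroup G))] at hd
  have h4 : layerOf (⊤ : Subgroup G) ≤ pPrimeCoreOf r ⊤ := by
    rw [layerOf_eq_sSup]
    exact sSup_le fun K' hK' => hK'.1.le_pPrimeCoreOf (hr.coprime_iff_not_dvd.2 (hn K' hK')).symm
  exact not_dvd_card_pPrimeCoreOf hr ⊤
    (((hr.dvd_mul.1 hd).resolve_right h3).trans (FT.card_dvd_of_le h4))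

theorem exists_inv {A C : Subgroup G} (hA : IsPGroup 2 A) (h4 : 4 ∣ 𝐨(A))
    (hP : ∀ a ∈ A, ∀ b ∈ A, a ∈ C ∨ b ∈ C ∨ a * b ∈ C) : ∃ s ∈ A ⊓ C, orderOf s = 2 := by
  refine FT.exists_mem_orderOf_eq_prime Nat.prime_two
    (prime_dvd_card_of_isPGroup Nat.prime_two (hA.to_le inf_le_left) fun e => ?_)
  let _ := Fintype.ofFinite A
  have h5 := Nat.le_of_dvd Nat.card_pos h4
  obtain ⟨a, b, c, ab, ac, bc⟩ := (Fintype.two_lt_card_iff (α := A)).1
    (by rw [← Nat.card_eq_fintype_card]; omega)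
  have k : ∀ x y : A, (x : G)⁻¹ * y ∈ C → x = y := fun x y hxy => Subtype.ext
    (inv_mul_eq_one.1 (mem_bot.1 (e ▸ mem_inf.2 ⟨mul_mem (inv_mem x.2) y.2, hxy⟩)))
  rcases hP _ (mul_mem (inv_mem a.2) b.2) _ (mul_mem (inv_mem b.2) c.2) with h | h | h
  · exact ab (k _ _ h)
  · exact bc (k _ _ h)
  · exact ac (k _ _ (by rwa [mul_assoc, mul_inv_cancel_left] at h))

theorem eq_of_cyc (hF : fittingOf (⊤ : Subgroup G) = ⊥) {T : Subgroup G} (hT : IsSyl 2 T ⊤) {x : G}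
    (hP : ∀ a ∈ T, ∀ b ∈ T, a ∈ zpowers x ∨ b ∈ zpowers x ∨ a * b ∈ zpowers x)
    {K K' : Subgroup G} (hK : CompIn ⊤ K) (hK' : CompIn ⊤ K') : K' = K := by
  by_contra hne
  have hsn : ∀ L : Subgroup G, CompIn ⊤ L → ∃ s ∈ L ⊓ zpowers x, orderOf s = 2 := by
    intro L hL
    have h1 : layerOf (⊤ : Subgroup G) ⊲ ⊤ := ⟨le_top, le_normalizer_layerOf ⊤⟩
    have h2 := (hT.inf_normal Nat.prime_two h1).inf_normal Nat.prime_two
      ⟨hL.le_layerOf, hL.layerOf_le_normalizer⟩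
    obtain ⟨s, hs, ho⟩ := exists_inv (C := zpowers x) h2.pgrp
      (P7.KO.four_dvd_syl h2 (P7.KO.four_dvd (QS.not_isSolvable hL.2)))
      fun a ha b hb => hP a ha.1.1 b hb.1.1
    exact ⟨s, ⟨hs.1.2, hs.2⟩, ho⟩
  obtain ⟨s, hs, ho⟩ := hsn K hK
  obtain ⟨t, ht, hto⟩ := hsn K' hK'
  have sq : ∀ y : G, orderOf y = 2 → y * y = 1 ∧ y ≠ 1 := fun y hy =>
    ⟨by rw [← sq, ← hy, pow_orderOf_eq_one], fun e => by simp [e] at hy⟩
  obtain e := (P7.eq_of_invol_cyclic inferInstance hs.2 (sq s ho).2 (sq s ho).1 ht.2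
    (sq t hto).1).resolve_left (sq t hto).2
  subst e
  exact (sq t ho).2 (mem_bot.1 (hF ▸ hK.inf_centralizer_le_fittingOf
    ⟨hs.1, hK'.le_centralizer_of_ne hK hne ht.1⟩))

theorem exists_cyc {r : ℕ} (hr : r.Prime) (h2 : r ≠ 2) (h : No2 G r) {P T : Subgroup G}
    (hP : IsPGroup r P) (h1 : P ≠ ⊥) (hT : IsPGroup 2 T) (hn : T ≤ 𝐍(P)) :
    ∃ x : G, ∀ a ∈ T, ∀ b ∈ T, a ∈ zpowers x ∨ b ∈ zpowers x ∨ a * b ∈ zpowers x := by
  haveI : Nontrivial P := (nontrivial_iff_ne_bot P).2 h1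
  haveI := Fact.mk Nat.prime_two
  have dv : ∀ (p : ℕ) (Q : Subgroup G), p.Prime → IsPGroup p Q → ∀ y ∈ Q, y ≠ 1 → p ∣ orderOf y := by
    intro p Q hp hQ y hy y1
    rw [← Nat.card_zpowers]
    exact prime_dvd_card_of_isPGroup hp (hQ.to_le (zpowers_le.2 hy)) (by rwa [Ne, zpowers_eq_bot])
  have hf := H9.isFrobAction_conjAction hn fun b hb b1 k hk e => by
    by_contra k1
    obtain ⟨g, hg⟩ := H9.exists_orderOf_eq_mul_of_commute (x := b) (y := k) e
      ((Nat.coprime_primes Nat.prime_two hr).2 h2.symm) (dv 2 T Nat.prime_two hT b hb b1)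
      (dv r P hr hP k hk k1)
    exact h g hg
  have co : ∀ x a : T, a ∈ zpowers x → (a : G) ∈ zpowers (x : G) := by
    rintro x _ ⟨i, rfl⟩
    exact ⟨i, by simp⟩
  rcases hf.pgroup_cases hT with hc | ⟨-, n, x, y, -, -, hi, -⟩
  · obtain ⟨x, hx⟩ := hc.exists_generator
    exact ⟨x, fun a ha b hb => Or.inl (co x ⟨a, ha⟩ (hx _))⟩
  · refine ⟨x, fun a ha b hb => ?_⟩
    by_cases h3 : (⟨a, ha⟩ : T) ∈ zpowers x
    · exact Or.inl (co x _ h3)
    by_cases h4 : (⟨b, hb⟩ : T) ∈ zpowers x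
    · exact Or.inr (Or.inl (co x _ h4))
    exact Or.inr (Or.inr (co x _ ((mul_mem_iff_of_index_two hi).2 (iff_of_false h3 h4))))

theorem s4008 (H : CopStmt.{u}) (hns : ¬ Group.IsSolvable G) {r : ℕ} (hr : r.Prime) (h2 : r ≠ 2)
    (hrG : r ∣ Nat.card G) (hno : No2 G r) (R : Subgroup G) [R.Normal] (hRs : Group.IsSolvable R)
    (hRmax : ∀ N : Subgroup G, N.Normal → Group.IsSolvable N → N ≤ R) :
    ∃ S : Subgroup (G ⧸ R), S.Normal ∧ IsSimpleGroup S ∧ ¬ IsMulCommutative S ∧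
      centralizer (S : Set (G ⧸ R)) = ⊥ := by
  have hf := QuotientGroup.mk'_surjective R
  haveI : Nontrivial (G ⧸ R) := QuotientGroup.nontrivial_iff.2 fun e =>
    hns (Group.isSolvable_of_isSolvable_injective (f := (MonoidHom.id G).codRestrict R
      fun x => e ▸ mem_top _) fun _ _ k => congrArg Subtype.val k)
  have hF : fittingOf (⊤ : Subgroup (G ⧸ R)) = ⊥ := by
    haveI : (fittingOf (⊤ : Subgroup (G ⧸ R))).Normal :=
      normal_of_top_le_normalizer (le_normalizer_fittingOf ⊤)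
    haveI := isSolvable_of_isNilpotent (isNilpotent_fittingOf (⊤ : Subgroup (G ⧸ R)))
    have h3 := map_mono (f := QuotientGroup.mk' R)
      (hRmax _ inferInstance (L.isSolvable_comap_mk' R (fittingOf ⊤)))
    rwa [map_comap_eq_self_of_surjective hf, QuotientGroup.map_mk'_self, le_bot_iff] at h3
  obtain ⟨K, hK⟩ := exists_comp hF
  by_cases hd : r ∣ Nat.card (G ⧸ R)
  · obtain ⟨K', hK', hd'⟩ := exists_comp_dvd H hr h2 (no2_quot hno R) hd hK
    exact ⟨K', one_comp hF hK' fun L hL => two_comps hK' hL hr h2 (no2_quot hno R) hd'⟩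
  rw [card_eq_card_quotient_mul_card_subgroup R] at hrG
  obtain ⟨P, hP⟩ := exists_isSyl hr R
  have hfr := hP.frattini hr (M := ⊤) ⟨le_top, (normalizer_eq_top R).ge⟩
  obtain ⟨T, hT⟩ := exists_isSyl Nat.prime_two 𝐍(P)
  obtain ⟨x, hx⟩ := exists_cyc hr h2 hno hP.pgrp (hP.ne_bot hr ((hr.dvd_mul.1 hrG).resolve_left hd))
    hT.pgrp hT.le
  have hs : Function.Surjective ((QuotientGroup.mk' R).comp (𝐍(P)).subtype) := by
    rw [← MonoidHom.range_eq_top, MonoidHom.range_comp, range_subtype, eq_top_iff,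
      ← map_top_of_surjective _ hf, ← hfr, Subgroup.map_sup, QuotientGroup.map_mk'_self, bot_sup_eq,
      top_inf_eq]
  have hT' : IsSyl 2 (T.map (QuotientGroup.mk' R)) ⊤ := by
    refine ⟨le_top, hT.pgrp.map _, fun e => hT.ndvd ?_⟩
    have := index_map_dvd (T.subgroupOf 𝐍(P)) hs
    rw [← map_map, subgroupOf_map_subtype, inf_eq_left.2 hT.le] at this
    rw [relIndex_top_right] at e
    exact e.trans this
  refine ⟨K, one_comp hF hK fun L hL => eq_of_cyc hF hT' (x := QuotientGroup.mk' R x) ?_ hK hL⟩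
  rintro _ ⟨a, ha, rfl⟩ _ ⟨b, hb, rfl⟩
  rw [← MonoidHom.map_zpowers, ← map_mul]
  exact (hx a ha b hb).imp (mem_map_of_mem _) (Or.imp (mem_map_of_mem _) (mem_map_of_mem _))

end Cfsg.Agent.P19.App
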