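/-
P19, applications: groups with disconnected prime graph.
-/
import Cfsg.Agent.P19.App0
import Cfsg.Agent.L.Invol

set_option autoImplicit false
set_option linter.unusedSectionVars false
set_option linter.style.haveILetI false

namespace Cfsg.Agent.P19.App

open Subgroup Cfsg Cfsg.Agent Cfsg.Agent.H9

universe u

variable {G : Type u} [Group G] [Finite G] {π : Set ℕ}

theorem frob_or_twoFrob (hsep : L.PiSep π G) (h : NoMix π G) (h1 : piCore π G ≠ ⊥)
    (h2 : piCore π G ≠ ⊤) :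
    (∃ C : Subgroup G, IsFrobeniusComplement C ∧ frobeniusKernel C = (piCore π G : Set G)) ∨
    (∃ (K : Subgroup G) (_ : K.Normal), piCore π G < K ∧
      (∃ C : Subgroup K, IsFrobeniusComplement C ∧
        frobeniusKernel C = ((piCore π G).subgroupOf K : Set K)) ∧
      (∃ C : Subgroup (G ⧸ piCore π G), IsFrobeniusComplement C ∧
        frobeniusKernel C = (K.map (QuotientGroup.mk' (piCore π G)) : Set (G ⧸ piCore π G)))) := by
  set H := piCore π G with hH
  have hHπ : IsPiSubgroup π H := L.isPiSubgroup_piCore π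
  by_cases hi : L.IsPiNum πᶜ H.index
  · exact Or.inl (h.exists_frob h1 h2 hHπ hi)
  right
  have hq := h.quotient H
  have hbot : piCore π (G ⧸ H) = ⊥ := L.piCore_quotient_piCore π
  have : Nontrivial (G ⧸ H) := QuotientGroup.nontrivial_iff.2 h2
  set K' := piCore πᶜ (G ⧸ H) with hK'
  have hK'1 : K' ≠ ⊥ := (hsep.quotient H).piCore_ne_bot.resolve_left (not_not.2 hbot)
  have hK'π : IsPiSubgroup πᶜ K' := L.isPiSubgroup_piCore _
  set K := K'.comap (QuotientGroup.mk' H) with hK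
  have hKK : K.map (QuotientGroup.mk' H) = K' :=
    map_comap_eq_self_of_surjective (QuotientGroup.mk'_surjective H) _
  have hHK : H ≤ K := QuotientGroup.le_comap_mk' H K'
  have hlt : H < K := by
    refine lt_of_le_of_ne hHK fun e => hK'1 ?_
    rw [← hKK, ← e, QuotientGroup.map_mk'_self]
  obtain ⟨C, hC, hCK⟩ := (h.subgroup K).exists_frob (H := H.subgroupOf K)
    (by rw [Ne, subgroupOf_eq_bot, disjoint_iff, inf_eq_left.2 hHK]; exact h1)
    (by rw [Ne, subgroupOf_eq_top]; exact hlt.not_ge)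
    (by intro r hr hd; rw [H2.card_subgroupOf_of_le hHK] at hd; exact hHπ r hr hd)
    (by rw [← relIndex, L.relIndex_eq_card_map_mk', hKK]; exact hK'π)
  refine ⟨K, inferInstance, hlt, ⟨C, hC, hCK⟩, ?_⟩
  rw [hKK]
  obtain ⟨a, ha, had, haπ⟩ : ∃ a : ℕ, a.Prime ∧ a ∣ H.index ∧ a ∈ π := by
    by_contra hc
    push Not at hc
    exact hi hc
  have := Fact.mk ha
  obtain ⟨y, hy⟩ := exists_prime_orderOf_dvd_card' (G := G ⧸ H) a had
  have hyf : ∀ k ∈ K', y * k = k * y → k = 1 := fun k hk e =>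
    hq.compl.eq_one hK'π ha (not_not.2 haπ) (hy ▸ dvd_rfl) hk e
  have hnil : Group.IsNilpotent K' := H5.isNilpotent_of_fpf ha K' y
    ((normalizer_eq_top K').ge (mem_top y)) (hy ▸ pow_orderOf_eq_one y) hyf
  obtain ⟨e⟩ := frob_exists_mulEquiv_map hC hCK
  rw [hKK] at e
  have : Nontrivial (H.subgroupOf K) := (nontrivial_iff_ne_bot _).2 (frob_kernel_ne_bot hC hCK)
  have hφ := (frob_isFrobAction hC hCK).comp e.symm.toMonoidHom e.symm.injective
  have hodd := hφ.odd_of_fpf (MulAut.conjNormal y) fun k hk => Subtype.ext (hyf k k.2 (by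
    have := congrArg Subtype.val hk
    rwa [MulAut.conjNormal_apply, mul_inv_eq_iff_eq_mul] at this))
  have hcyc := hφ.isCyclic_of_odd_of_isNilpotent hodd
  have hcent : centralizer (K' : Set (G ⧸ H)) ≤ K' :=
    L.centralizer_piCore_le (hsep.quotient H).compl (by rwa [compl_compl])
  have hcomm : IsMulCommutative ((G ⧸ H) ⧸ K') := by
    refine ⟨⟨fun a b => ?_⟩⟩
    obtain ⟨a, rfl⟩ := QuotientGroup.mk_surjective a
    obtain ⟨b, rfl⟩ := QuotientGroup.mk_surjective b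
    rw [← QuotientGroup.mk_mul, ← QuotientGroup.mk_mul, QuotientGroup.eq]
    refine hcent fun k hk => ?_
    have := isMulCommutative_of_injective_mulAut (MonoidHom.id (MulAut K')) Function.injective_id
    have e : MulAut.conjNormal (H := K') ((a * b)⁻¹ * (b * a)) = 1 := by
      rw [map_mul, map_inv, map_mul, map_mul, mul_comm' (MulAut.conjNormal b), inv_mul_cancel]
    have e' := congrArg Subtype.val (DFunLike.congr_fun e ⟨k, hk⟩)
    rw [MulAut.conjNormal_apply, mul_inv_eq_iff_eq_mul] at e'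
    exact e'.symm
  refine hq.compl.exists_frob hK'1 (fun e => ?_) hK'π ?_
  · exact hK'π a ha (by rw [e, card_top]; exact had) haπ
  · rw [compl_compl]
    intro r hr hd
    by_contra hrπ
    have := Fact.mk hr
    obtain ⟨z, hz⟩ := exists_prime_orderOf_dvd_card' (G := (G ⧸ H) ⧸ K') r hd
    have h3 : zpowers z ≤ piCore πᶜ ((G ⧸ H) ⧸ K') := L.le_piCore inferInstance (by
      intro s hs hsd
      rw [Nat.card_zpowers, hz] at hsd
      rwa [(Nat.prime_dvd_prime_iff_eq hs hr).1 hsd])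
    rw [L.piCore_quotient_piCore, le_bot_iff, zpowers_eq_bot] at h3
    rw [h3, orderOf_one] at hz
    exact hr.one_lt.ne hz

open Cfsg.Agent.FT Cfsg.Agent.H2

theorem no2_of (h2 : 2 ∈ π) (h : NoMix π G) {r : ℕ} (hr : r.Prime) (hπ : r ∉ π) : No2 G r :=
  fun g hg => h 2 h2 r hπ Nat.prime_two hr ⟨g, hg⟩

theorem piSep_of (h2 : 2 ∈ π) (h : NoMix π G) (hK : piCore πᶜ G ≠ ⊥) : L.PiSep π G := by
  by_cases hev : 2 ∣ Nat.card G
  swap
  · haveI := feit_thompson G (Nat.not_even_iff_odd.1 fun e => hev (even_iff_two_dvd.1 e))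
    exact L.piSep_of_isSolvable π
  set K := piCore πᶜ G with hKd
  have hKπ : IsPiSubgroup πᶜ K := L.isPiSubgroup_piCore _
  haveI := Fact.mk Nat.prime_two
  obtain ⟨t, ht⟩ := exists_prime_orderOf_dvd_card' (G := G) 2 hev
  have inv : ∀ s : G, orderOf s = 2 → ∀ k ∈ K, s * k * s = k⁻¹ := fun s hs =>
    L.inverts_of_fpf (by rw [← sq, ← hs, pow_orderOf_eq_one]) ((normalizer_eq_top K).ge (mem_top s))
      fun a ha hc => h.compl.eq_one hKπ Nat.prime_two (not_not.2 h2) (hs ▸ dvd_rfl) ha hc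
  have hC : centralizer (K : Set G) ≤ K := by
    refine L.le_piCore inferInstance fun p hp hd hpπ => hK ?_
    obtain ⟨y, hy, ho⟩ := FT.exists_mem_orderOf_eq_prime hp hd
    exact eq_bot_iff.2 fun k hk =>
      h.compl.eq_one hKπ hp (not_not.2 hpπ) (ho ▸ dvd_rfl) hk (mem_cent.1 hy k hk).symm
  have tt : t * t = 1 := by rw [← sq, ← ht, pow_orderOf_eq_one]
  have hc : ∀ g : G, (g * t * g⁻¹)⁻¹ * t ∈ K := fun g => hC (mem_cent.2 fun k hk => by
    have ho : orderOf (g * t * g⁻¹) = 2 := by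
      rw [← ht]; exact (SemiconjBy.orderOf_eq g (by simp [SemiconjBy])).symm
    have e1 := inv t ht k hk
    have e2 := inv _ ho k hk
    generalize g * t * g⁻¹ = s at e2 ho
    have ss : s * s = 1 := by rw [← sq, ← ho, pow_orderOf_eq_one]
    rw [inv_eq_of_mul_eq_one_right ss]
    calc k * (s * t) = (s * s) * k * (s * t) := by rw [ss, one_mul]
      _ = s * (s * k * s) * t := by simp only [mul_assoc]
      _ = s * (t * k * t) * t := by rw [e1, e2]
      _ = s * t * k * (t * t) := by simp only [mul_assoc]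
      _ = s * t * k := by rw [tt, mul_one])
  refine L.PiSep.of_normal_of_quotient K (L.piSep_of_isPiNum_compl hKπ)
    (L.piSep_of_isPiNum fun r hr hd => ?_)
  by_contra hπ
  haveI := Fact.mk hr
  obtain ⟨z, hz⟩ := exists_prime_orderOf_dvd_card' (G := G ⧸ K) r hd
  obtain ⟨g, rfl⟩ := QuotientGroup.mk_surjective z
  have t1 : orderOf (t : G ⧸ K) = 2 := orderOf_eq_prime
    (by rw [sq, ← QuotientGroup.mk_mul, tt, QuotientGroup.mk_one]) fun e =>
      hKπ 2 Nat.prime_two (ht ▸ K.orderOf_dvd_natCard ((QuotientGroup.eq_one_iff t).1 e)) h2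
  have hcm : Commute (t : G ⧸ K) (g : G ⧸ K) := by
    have := QuotientGroup.eq.2 (hc g)
    rw [QuotientGroup.mk_mul, QuotientGroup.mk_mul, QuotientGroup.mk_inv,
      mul_inv_eq_iff_eq_mul] at this
    exact this.symm
  exact (h.quotient K) 2 h2 r hπ Nat.prime_two hr (exists_orderOf_eq_mul_of_commute hcm
    ((Nat.coprime_primes Nat.prime_two hr).2 fun e => hπ (e ▸ h2)) (t1 ▸ dvd_rfl) (hz ▸ dvd_rfl))

theorem almost (H : CopStmt.{u}) (h2 : 2 ∈ π) (h : NoMix π G) [Nontrivial G]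
    (h0 : piCore π G = ⊥) (h1 : piCore πᶜ G = ⊥) : ∃ S : Subgroup G, S.Normal ∧
      L.IsPiNum π S.index ∧ IsSimpleGroup S ∧ ¬ IsMulCommutative S := by
  have hF : fittingOf (⊤ : Subgroup G) = ⊥ := by
    rw [fittingOf_eq_iSup_pCoreOf, iSup_eq_bot]
    rintro ⟨p, hp⟩
    by_cases hπ : p ∈ π
    · rw [eq_bot_iff, ← h0, ← piCoreOf_top]
      exact (snIn_pCoreOf p ⊤).le_piCoreOf (isPi_of_isPGroup hp (isPGroup_pCoreOf p ⊤) hπ)
    · rw [eq_bot_iff, ← h1, ← piCoreOf_top]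
      exact (snIn_pCoreOf p ⊤).le_piCoreOf (isPi_of_isPGroup hp (isPGroup_pCoreOf p ⊤) hπ)
  obtain ⟨K, hK⟩ := exists_comp hF
  have n2 : ∀ r : ℕ, r ∉ π → r ≠ 2 := fun r hr e => hr (e ▸ h2)
  obtain ⟨r, hr, hd, hπ⟩ : ∃ r : ℕ, r.Prime ∧ r ∣ 𝐨(K) ∧ r ∉ π := by
    by_contra! hn
    have := hK.1.le_piCoreOf (π := π) hn
    rw [piCoreOf_top, h0, le_bot_iff] at this
    exact QS.ne_bot hK.2 this
  obtain ⟨k1, k2, k3, -⟩ := one_comp hF hK fun K' hK' =>
    two_comps hK hK' hr (n2 r hπ) (no2_of h2 h hr hπ) hd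
  exact ⟨K, k1, fun p hp hpd => by_contra fun hpπ =>
    cop_index H hp (n2 p hpπ) (no2_of h2 h hp hpπ) (QS.not_isSolvable hK.2) hpd, k2, k3⟩

theorem disc (H : CopStmt.{u}) (h2 : 2 ∈ π) (h : NoMix π G) (hev : 2 ∣ Nat.card G) {b : ℕ}
    (hb : b ∉ π) (hbp : b.Prime) (hbd : b ∣ Nat.card G) :
    (∃ C : Subgroup G, IsFrobeniusComplement C) ∨
    (∃ (H K : Subgroup G) (_ : H.Normal), K.Normal ∧ H < K ∧
      (∃ C : Subgroup K, IsFrobeniusComplement C ∧ frobeniusKernel C = (H.subgroupOf K : Set K)) ∧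
      (∃ C : Subgroup (G ⧸ H), IsFrobeniusComplement C ∧
        frobeniusKernel C = (K.map (QuotientGroup.mk' H) : Set (G ⧸ H)))) ∨
    (∃ (N M : Subgroup G) (_ : N.Normal) (_ : M.Normal), N ≤ M ∧ L.IsPiNum π (Nat.card N) ∧
      L.IsPiNum π (Nat.card (G ⧸ M)) ∧ IsSimpleGroup (M ⧸ N.subgroupOf M) ∧
      ¬ IsMulCommutative (M ⧸ N.subgroupOf M)) := by
  have hne : ∀ (ρ : Set ℕ) (p : ℕ), p ∉ ρ → p.Prime → p ∣ Nat.card G → piCore ρ G ≠ ⊤ :=
    fun ρ p h3 hp hd e => h3 (L.isPiSubgroup_piCore (G := G) ρ p hp (by rwa [e, card_top]))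
  have hf := QuotientGroup.mk'_surjective (piCore π G)
  by_cases hK : piCore πᶜ (G ⧸ piCore π G) = ⊥
  · haveI : Nontrivial (G ⧸ piCore π G) := QuotientGroup.nontrivial_iff.2 (hne π b hb hbp hbd)
    obtain ⟨S, s1, s2, s3, s4⟩ := almost H h2 (h.quotient _) (L.piCore_quotient_piCore π) hK
    set M := S.comap (QuotientGroup.mk' (piCore π G)) with hM
    let φ : M →* S := ((QuotientGroup.mk' (piCore π G)).comp M.subtype).codRestrict S fun x => x.2
    have hφ : Function.Surjective φ := by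
      rintro ⟨y, hy⟩
      obtain ⟨x, rfl⟩ := hf y
      exact ⟨⟨x, hy⟩, rfl⟩
    have hk : (piCore π G).subgroupOf M = φ.ker := by
      ext x
      rw [MonoidHom.mem_ker, mem_subgroupOf, Subtype.ext_iff]
      exact (QuotientGroup.eq_one_iff _).symm
    have e := (QuotientGroup.quotientMulEquivOfEq hk).trans
      (QuotientGroup.quotientKerEquivOfSurjective φ hφ)
    refine Or.inr (Or.inr ⟨_, M, inferInstance, inferInstance, QuotientGroup.le_comap_mk' _ _,
      L.isPiSubgroup_piCore π, ?_, e.isSimpleGroup, fun hc => s4 ⟨⟨fun x y => ?_⟩⟩⟩)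
    · rwa [← index_eq_card, index_comap_of_surjective _ hf]
    · obtain ⟨x, rfl⟩ := e.surjective x
      obtain ⟨y, rfl⟩ := e.surjective y
      rw [← map_mul, ← map_mul, hc.1.1 x y]
  have hsep : L.PiSep π G := L.PiSep.of_normal_of_quotient (piCore π G)
    (L.piSep_of_isPiNum (L.isPiSubgroup_piCore π)) (piSep_of h2 (h.quotient _) hK)
  haveI : Nontrivial G := Finite.one_lt_card_iff_nontrivial.1
    (hbp.one_lt.trans_le (Nat.le_of_dvd Nat.card_pos hbd))
  rcases hsep.piCore_ne_bot with h1 | h1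
  · rcases frob_or_twoFrob hsep h h1 (hne π b hb hbp hbd) with ⟨C, hC, -⟩ | ⟨K, hK, h3, h4, h5⟩
    · exact Or.inl ⟨C, hC⟩
    · exact Or.inr (Or.inl ⟨_, K, inferInstance, hK, h3, h4, h5⟩)
  · rcases frob_or_twoFrob hsep.compl h.compl h1 (hne πᶜ 2 (not_not.2 h2) Nat.prime_two hev) with
      ⟨C, hC, -⟩ | ⟨K, hK, h3, h4, h5⟩
    · exact Or.inl ⟨C, hC⟩
    · exact Or.inr (Or.inl ⟨_, K, inferInstance, hK, h3, h4, h5⟩)

/-- Adjacency in the prime graph. -/
def Adj (G : Type u) [Group G] (a b : ℕ) : Prop :=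
  a.Prime ∧ b.Prime ∧ a ≠ b ∧ a ∣ Nat.card G ∧ b ∣ Nat.card G ∧ ∃ g : G, orderOf g = a * b

theorem s3856 (H : CopStmt.{u}) (heven : Even (Nat.card G))
    (hdisc : ∃ A : Set ℕ, (∃ a ∈ A, a.Prime ∧ a ∣ Nat.card G) ∧ (∃ b ∉ A, b.Prime ∧ b ∣ Nat.card G) ∧
      ∀ a ∈ A, ∀ b ∉ A, a.Prime → b.Prime → a ∣ Nat.card G → b ∣ Nat.card G →
        ¬ ∃ g : G, orderOf g = a * b) :
    (∃ C : Subgroup G, IsFrobeniusComplement C) ∨
    (∃ (H K : Subgroup G) (_ : H.Normal), K.Normal ∧ H < K ∧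
      (∃ C : Subgroup K, IsFrobeniusComplement C ∧ frobeniusKernel C = (H.subgroupOf K : Set K)) ∧
      (∃ C : Subgroup (G ⧸ H), IsFrobeniusComplement C ∧
        frobeniusKernel C = (K.map (QuotientGroup.mk' H) : Set (G ⧸ H)))) ∨
    (∃ (N M : Subgroup G) (_ : N.Normal) (_ : M.Normal), N ≤ M ∧
      (∀ p : ℕ, p.Prime → p ∣ Nat.card N → Relation.ReflTransGen (Adj G) 2 p) ∧
      (∀ p : ℕ, p.Prime → p ∣ Nat.card (G ⧸ M) → Relation.ReflTransGen (Adj G) 2 p) ∧
      IsSimpleGroup (M ⧸ N.subgroupOf M) ∧ ¬ IsMulCommutative (M ⧸ N.subgroupOf M)) := by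
  obtain ⟨A, ⟨a, ha, hap, had⟩, ⟨b, hb, hbp, hbd⟩, h⟩ := hdisc
  have hm : NoMix {p | Relation.ReflTransGen (Adj G) 2 p} G := fun p hp q hq hpp hqp ⟨g, hg⟩ =>
    hq (Relation.ReflTransGen.tail hp ⟨hpp, hqp, fun e => hq (e ▸ hp),
      (dvd_mul_right p q).trans (hg ▸ orderOf_dvd_natCard g),
      (dvd_mul_left q p).trans (hg ▸ orderOf_dvd_natCard g), g, hg⟩)
  have key : ∀ p, Relation.ReflTransGen (Adj G) 2 p → (p ∈ A ↔ 2 ∈ A) := by
    intro p hp
    induction hp with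
    | refl => rfl
    | tail _ hq ih =>
      obtain ⟨k1, k2, -, k3, k4, g, hg⟩ := hq
      rw [← ih]
      exact ⟨fun k => by_contra fun k' => h _ k _ k' k2 k1 k4 k3 ⟨g, hg.trans (mul_comm _ _)⟩,
        fun k => by_contra fun k' => h _ k _ k' k1 k2 k3 k4 ⟨g, hg⟩⟩
  by_cases h2 : 2 ∈ A
  · exact disc H Relation.ReflTransGen.refl hm heven.two_dvd (fun k => hb ((key b k).2 h2)) hbp hbd
  · exact disc H Relation.ReflTransGen.refl hm heven.two_dvd (fun k => h2 ((key a k).1 ha)) hap had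

end Cfsg.Agent.P19.App
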